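import Groth.Agent.S1118
import Groth.Agent.S1054
import Groth.Agent.Dcoh.PerfDual
import Groth.Agent.PerfA.QCohD
import Groth.Agent.PerfB.FlatPull
import Groth.Agent.PerfC.RpushTrunc
import Groth.Prelude.Def_Dual3

/-!
# `Rf_* a(O_Y)` is the dual of `Rf_* O_X`

* `nonempty_Rpush_iso`: if `a` is a right adjoint of `Rf_* : D_QCoh(X) ⥤ D_QCoh(Y)` (`f` qcqs) and `Rf_* O_X` has a
  dual `E'` in `D_QCoh(Y)` then `Rf_* a(O_Y) ≅ E'`;
* `isLE_dual`: if `E ⊗ᴸ N` is in `D^{≥ 1}` for `N ∈ D_QCoh^{≥ 1}` then the dual `E'` of `E` is in `D^{≤ 0}`;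
* `isLE_Rpush_obj`: if moreover `f` is flat then `Rf_* a(O_Y)` is in `D^{≤ 0}`.
-/

set_option autoImplicit false

universe u

open CategoryTheory CategoryTheory.Limits AlgebraicGeometry MonoidalCategory Pretriangulated

attribute [local instance] HasDerivedCategory.standard

open scoped Groth.Agent.Dcoh.MonCat Groth.Agent.Dcoh.ModD

namespace Groth.Agent.Dual.H309.PushDual

open Groth.Agent.PerfC.DTens Groth.Agent.PerfC.LpullTens Groth.Agent.Dcoh.PerfDual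
  Groth.Agent.PerfA.QCohD Groth.Agent.PerfC.ProjAbs291

variable {X Y : Scheme.{u}}

variable (X) in
/-- `O_X` as an object of `D(O_X)`. -/
noncomputable abbrev oD : DCoh.D X := DerivedCategory.Q.obj (unitCx X)

variable (X) in
noncomputable def inDIso : DCoh.inD X (Coh.structureModule X) ≅ oD X :=
  (DerivedCategory.singleFunctorIsoCompQ X.Modules 0).app (Coh.structureModule X)

variable (X) in
/-- `O_X ⊗ᴸ - ≅ 𝟭`. -/
noncomputable def leftUnitIso : (LTX X).obj (oD X) ≅ 𝟭 (DCoh.D X) :=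
  ((symmIso X).app (oD X)).symm ≪≫ unitIso X

section main

variable (f : X ⟶ Y) [DCoh.HasRpush f] [DCoh.HasLpull f]

/-- The natural map `Rf_* O_X ⊗ᴸ K ⟶ Rf_* Lf^* K`. -/
noncomputable def tMap : (LTX Y).obj ((DCoh.Rpush f).obj (oD X)) ⟶ DCoh.Lpull f ⋙ DCoh.Rpush f :=
  theta f (oD X) ≫ Functor.whiskerLeft (DCoh.Lpull f) (Functor.whiskerRight (leftUnitIso X).hom (DCoh.Rpush f))

theorem isIso_tMap_app [QuasiCompact f] [QuasiSeparated f] (hO : DCoh.IsQCohD (oD X)) {K : DCoh.D Y}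
    (hK : DCoh.IsQCohD K) : IsIso ((tMap f).app K) := by
  have h1 := Groth.Agent.S1118.isIso_theta_app f (oD X) hO K hK
  rw [tMap, NatTrans.comp_app]
  have h2 : IsIso ((Functor.whiskerLeft (DCoh.Lpull f)
      (Functor.whiskerRight (leftUnitIso X).hom (DCoh.Rpush f))).app K) := by
    rw [Functor.whiskerLeft_app, Functor.whiskerRight_app]
    infer_instance
  exact IsIso.comp_isIso

end main

/-- An adjunction between derived categories restricts to `D_QCoh`. -/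
noncomputable def restrictAdj {L : DCoh.D Y ⥤ DCoh.D X} {R : DCoh.D X ⥤ DCoh.D Y} (adj : L ⊣ R)
    (hL : ∀ K, DCoh.IsQCohD K → DCoh.IsQCohD (L.obj K)) (hR : ∀ K, DCoh.IsQCohD K → DCoh.IsQCohD (R.obj K)) :
    ObjectProperty.lift DCoh.IsQCohD (ObjectProperty.ι DCoh.IsQCohD ⋙ L) (fun K => hL K.obj K.property) ⊣
      ObjectProperty.lift DCoh.IsQCohD (ObjectProperty.ι DCoh.IsQCohD ⋙ R) (fun K => hR K.obj K.property) :=
  adj.restrictFullyFaithful (ObjectProperty.fullyFaithfulι _) (ObjectProperty.fullyFaithfulι _)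
    (ObjectProperty.liftCompιIso _ _ _).symm (ObjectProperty.liftCompιIso _ _ _).symm

theorem nonempty_adj {E E' : DCoh.D Y} (_h : ExactPairing E E') :
    Nonempty ((LTX Y).obj E ⊣ (LTX Y).flip.obj E') := by
  obtain ⟨e⟩ := nonempty_flipIso E
  obtain ⟨e'⟩ := nonempty_flipIso E'
  exact ⟨((tensorRightAdjunction E E').ofNatIsoLeft (((symmIso Y).app E).symm ≪≫ e).symm).ofNatIsoRight e'.symm⟩

theorem isQCohD_oD : DCoh.IsQCohD (oD X) :=
  Groth.Agent.PerfA.QCohD.isQCohD_of_iso (inDIso X) (isQCohD_inD _ (Groth.Agent.PerfA.QCohSerre.isQCoh_unit X))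

/-- If `Rf_* O_X` has a dual `E'` in `D_QCoh(Y)` then `Rf_* a(O_Y) ≅ E'`. -/
theorem nonempty_Rpush_iso (f : X ⟶ Y) [QuasiCompact f] [QuasiSeparated f] [DCoh.HasRpush f]
    (hf : DCoh.RpushPreservesQCoh f) (a : DCoh.DQCoh Y ⥤ DCoh.DQCoh X) (adj : DCoh.RpushQ f hf ⊣ a)
    {E' : DCoh.D Y} (hE' : DCoh.IsQCohD E') (h : ExactPairing ((DCoh.Rpush f).obj (oD X)) E')
    (O : DCoh.DQCoh Y) (hO : Nonempty (O.obj ≅ DCoh.inD Y (Coh.structureModule Y))) :
    Nonempty (((DCoh.RpushQ f hf).obj (a.obj O)).obj ≅ E') := by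
  have := Groth.Agent.Dcoh.DerPull.hasLpull f
  have hX := isQCohD_oD (X := X)
  have hE : DCoh.IsQCohD ((DCoh.Rpush f).obj (oD X)) := hf _ hX
  obtain ⟨adjE⟩ := nonempty_adj h
  let aL := restrictAdj (Groth.Agent.Dcoh.DerPull.lpullAdj f) (Groth.Agent.S1054.result f) hf
  let aT := restrictAdj adjE (fun K hK => Groth.Agent.PerfC.ProjAbs291.isQCohD_LTX hE hK)
    (fun K hK => Groth.Agent.PerfC.ProjAbs291.isQCohD_LTX hK hE')
  let t : ObjectProperty.lift DCoh.IsQCohD (ObjectProperty.ι DCoh.IsQCohD ⋙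
        (LTX Y).obj ((DCoh.Rpush f).obj (oD X)))
        (fun K => Groth.Agent.PerfC.ProjAbs291.isQCohD_LTX hE K.property) ≅
      ObjectProperty.lift DCoh.IsQCohD (ObjectProperty.ι DCoh.IsQCohD ⋙ DCoh.Lpull f)
        (fun K => Groth.Agent.S1054.result f K.obj K.property) ⋙ DCoh.RpushQ f hf :=
    NatIso.ofComponents (fun K => ObjectProperty.isoMk _
      (@asIso _ _ _ _ ((tMap f).app K.obj) (isIso_tMap_app f hX K.property)))
      (fun φ => InducedCategory.hom_ext ((tMap f).naturality φ.hom))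
  let r := ((aL.comp adj).ofNatIsoLeft t.symm).rightAdjointUniq aT
  obtain ⟨eO⟩ := hO
  exact ⟨(ObjectProperty.ι DCoh.IsQCohD).mapIso (r.app O) ≪≫
    ((LTX Y).mapIso (eO ≪≫ inDIso Y)).app E' ≪≫ (leftUnitIso Y).app E'⟩

/-- A criterion for the dual of `E` to be in `D^{≤ 0}`. -/
theorem isLE_dual {E E' : DCoh.D Y} (_h : ExactPairing E E') (hE' : DCoh.IsQCohD E')
    (H : ∀ N : DCoh.D Y, DCoh.IsQCohD N → N.IsGE 1 → (((LTX Y).obj E).obj N).IsGE 1) : E'.IsLE 0 := by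
  rw [DerivedCategory.IsLE, DerivedCategory.TStructure.t.isLE_iff_isZero_truncGE_obj 0 1 rfl]
  have hN := isQCohD_truncGE hE' 1
  have hN1 : ((DerivedCategory.TStructure.t.truncGE 1).obj E').IsGE 1 := inferInstance
  obtain ⟨e⟩ := Groth.Agent.Dcoh.PerfDual.nonempty_iso E ((DerivedCategory.TStructure.t.truncGE 1).obj E')
  have h1 := H _ hN hN1
  have h2 : (E ⊗ ((DerivedCategory.TStructure.t.truncGE 1).obj E')).IsGE 1 :=
    Groth.Agent.PerfC.RpushTrunc.isGE_of_iso e 1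
  have h3 : (𝟙_ (DCoh.D Y)).IsLE 0 :=
    DerivedCategory.TStructure.t.isLE_of_iso (Groth.Agent.Dcoh.DualX.unitIso Y) 0
  have h4 : Subsingleton (𝟙_ (DCoh.D Y) ⟶ E ⊗ ((DerivedCategory.TStructure.t.truncGE 1).obj E')) :=
    ⟨fun x y => by
      rw [DerivedCategory.TStructure.t.zero_of_isLE_of_isGE x 0 1 (by lia) h3 h2,
        DerivedCategory.TStructure.t.zero_of_isLE_of_isGE y 0 1 (by lia) h3 h2]⟩
  have h5 : Subsingleton (E' ⟶ (DerivedCategory.TStructure.t.truncGE 1).obj E') :=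
    @Equiv.subsingleton _ _ (((ρ_ E').symm.homFromEquiv).trans
      ((tensorLeftAdjunction E E').homEquiv (𝟙_ (DCoh.D Y)) _)) h4
  rw [IsZero.iff_id_eq_zero]
  exact DerivedCategory.TStructure.t.from_truncGE_obj_ext (@Subsingleton.elim _ h5 _ _)

/-- `Rf_* a(O_Y)` is in `D^{≤ 0}` if `f` is flat and `Rf_* O_X` is perfect. -/
theorem isLE_Rpush_obj (f : X ⟶ Y) [QuasiCompact f] [QuasiSeparated f] [Flat f] [DCoh.HasRpush f]
    (hf : DCoh.RpushPreservesQCoh f) (hperf : DCoh.IsPerfect ((DCoh.Rpush f).obj (oD X)))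
    (a : DCoh.DQCoh Y ⥤ DCoh.DQCoh X) (adj : DCoh.RpushQ f hf ⊣ a)
    (O : DCoh.DQCoh Y) (hO : Nonempty (O.obj ≅ DCoh.inD Y (Coh.structureModule Y))) :
    (((DCoh.RpushQ f hf).obj (a.obj O)).obj).IsLE 0 := by
  have := Groth.Agent.Dcoh.DerPull.hasLpull f
  obtain ⟨E', hE', ⟨h⟩⟩ := exists_exactPairing _ hperf
  have hE'q := isQCohD_of_isPerfect E' hE'
  obtain ⟨e⟩ := nonempty_Rpush_iso f hf a adj hE'q h O hO
  have h0 : E'.IsLE 0 := by
    refine isLE_dual h hE'q (fun N hN hN1 => ?_)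
    have h1 := isIso_tMap_app f isQCohD_oD hN
    have h2 : ((DCoh.Lpull f).obj N).IsGE 1 := by
      rw [DerivedCategory.isGE_iff] at hN1 ⊢
      intro i hi
      exact (Functor.map_isZero (Scheme.Modules.pullback f) (hN1 i hi)).of_iso
        (Groth.Agent.PerfB.FlatPull.HDLpull f N i)
    have h3 : ((DCoh.Lpull f ⋙ DCoh.Rpush f).obj N).IsGE 1 :=
      Groth.Agent.PerfC.RpushTrunc.isGE_Rpush f ((DCoh.Lpull f).obj N) 1
    exact Groth.Agent.PerfC.RpushTrunc.isGE_of_iso (@asIso _ _ _ _ ((tMap f).app N) h1).symm 1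
  exact DerivedCategory.TStructure.t.isLE_of_iso e.symm 0

end Groth.Agent.Dual.H309.PushDual
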